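import Cfsg.Agent.Lib.Helper90.G2S.Defs

set_option autoImplicit false

namespace Cfsg.Agent.Lib.Helper90.G2S

/-- B0. -/
theorem exists_two_part {G : Type*} [Group G] (T : Subgroup G) [Finite T]
    (hc : ∀ c ∈ T, ∀ c' ∈ T, Commute c c') :
    ∃ T₂ : Subgroup G, T₂ ≤ T ∧ IsPGroup 2 T₂ ∧
      Nat.card T₂ = 2 ^ padicValNat 2 (Nat.card T) ∧
      ∀ c ∈ T, (∃ k : ℕ, c ^ 2 ^ k = 1) → c ∈ T₂ := by
  classical
  have : Fact (Nat.Prime 2) := ⟨Nat.prime_two⟩
  obtain ⟨P⟩ : Nonempty (Sylow 2 T) := inferInstance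
  have hn : (P : Subgroup T).Normal := by
    constructor
    intro n hn g
    have : g * n * g⁻¹ = n := by
      have h := hc g g.2 n n.2
      have h' : g * n = n * g := Subtype.ext h
      rw [h', mul_assoc, mul_inv_cancel, mul_one]
    rw [this]; exact hn
  refine ⟨(P : Subgroup T).map T.subtype, ?_, P.isPGroup'.map _, ?_, ?_⟩
  · rintro _ ⟨x, -, rfl⟩
    exact x.2
  · rw [Nat.card_congr ((P : Subgroup T).equivMapOfInjective T.subtype
      (Subgroup.subtype_injective T)).symm.toEquiv, Sylow.card_eq_multiplicity,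
      Nat.factorization_def _ Nat.prime_two]
  · rintro c hcT ⟨k, hk⟩
    have hz : IsPGroup 2 (Subgroup.zpowers (⟨c, hcT⟩ : T)) := by
      rw [IsPGroup.iff_orderOf] 
      intro x
      obtain ⟨x, n, rfl⟩ := x
      have h1 : ((⟨(⟨c, hcT⟩ : T) ^ n, ⟨n, rfl⟩⟩ : Subgroup.zpowers (⟨c, hcT⟩ : T))) ^ 2 ^ k = 1 := by
        apply Subtype.ext
        apply Subtype.ext
        simp only [Subgroup.coe_pow, Subgroup.coe_zpow, Subgroup.coe_one]
        rw [← zpow_natCast, ← zpow_mul, mul_comm, zpow_mul, zpow_natCast, hk, one_zpow]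
      obtain ⟨j, -, hj⟩ := (Nat.dvd_prime_pow Nat.prime_two).1 (orderOf_dvd_of_pow_eq_one h1)
      exact ⟨j, hj⟩
    obtain ⟨Q, hQ⟩ := hz.exists_le_sylow
    have hQP : Q = P := by
      have := Sylow.unique_of_normal P hn
      exact Subsingleton.elim _ _
    refine ⟨⟨c, hcT⟩, ?_, rfl⟩
    rw [← hQP]
    exact hQ (Subgroup.mem_zpowers _)

end Cfsg.Agent.Lib.Helper90.G2S
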