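import Cfsg.Agent.Lib.Helper90.G2S.Defs

/-!
Ladder G2SYL, rung B1 (helper72): the 2-part of a torus of `GL₂` extended by a Weyl involution.
-/

set_option autoImplicit false

namespace Cfsg.Agent.Lib.Helper90.G2S

open Cfsg.Lie Matrix
open scoped MatrixGroups commutatorElement

variable {F : Type*} [Field F]

theorem B1_winv {T : Subgroup (GL (Fin 2) F)} {w : GL (Fin 2) F} (h : Tor T w) : w⁻¹ = w :=
  inv_eq_of_mul_eq_one_left h.w_sq

/-- the explicit form of `T ⊔ ⟨w⟩`. -/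
def B1X {T : Subgroup (GL (Fin 2) F)} {w : GL (Fin 2) F} (h : Tor T w) :
    Subgroup (GL (Fin 2) F) where
  carrier := {x | x ∈ T ∨ x * w ∈ T}
  one_mem' := Or.inl T.one_mem
  mul_mem' := by
    have hw := B1_winv h
    rintro x y (hx | hx) (hy | hy)
    · exact Or.inl (T.mul_mem hx hy)
    · right
      rw [mul_assoc]
      exact T.mul_mem hx hy
    · right
      have h1 := T.mul_mem hx (h.conj_mem y hy)
      have h2 : x * w * (w * y * w⁻¹) = x * y * w := by
        rw [hw]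
        calc x * w * (w * y * w) = x * (w * w) * y * w := by group
          _ = x * y * w := by rw [h.w_sq, mul_one]
      rwa [h2] at h1
    · left
      have h1 := T.mul_mem hx (h.conj_mem _ hy)
      have h2 : x * w * (w * (y * w) * w⁻¹) = x * y := by
        calc x * w * (w * (y * w) * w⁻¹) = x * (w * w) * y := by group
          _ = x * y := by rw [h.w_sq, mul_one]
      rwa [h2] at h1
  inv_mem' := by
    have hw := B1_winv h
    rintro x (hx | hx)
    · exact Or.inl (T.inv_mem hx)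
    · right
      have h1 := h.conj_mem _ (T.inv_mem hx)
      have h2 : w * (x * w)⁻¹ * w⁻¹ = x⁻¹ * w := by
        calc w * (x * w)⁻¹ * w⁻¹ = x⁻¹ * w⁻¹ := by group
          _ = x⁻¹ * w := by rw [hw]
      rwa [h2] at h1

theorem B1_mem {T : Subgroup (GL (Fin 2) F)} {w : GL (Fin 2) F} (h : Tor T w) (x : GL (Fin 2) F) :
    x ∈ B1X h ↔ x ∈ T ∨ x * w ∈ T := Iff.rfl

theorem B1_eq {T : Subgroup (GL (Fin 2) F)} {w : GL (Fin 2) F} (h : Tor T w) :
    T ⊔ Subgroup.zpowers w = B1X h := by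
  apply le_antisymm
  · apply sup_le
    · intro x hx; exact Or.inl hx
    · rw [Subgroup.zpowers_le]
      right
      rw [h.w_sq]; exact T.one_mem
  · rintro x (hx | hx)
    · exact (le_sup_left : T ≤ T ⊔ Subgroup.zpowers w) hx
    · have h1 : x * w ∈ T ⊔ Subgroup.zpowers w := (le_sup_left : T ≤ T ⊔ Subgroup.zpowers w) hx
      have h2 : w ∈ T ⊔ Subgroup.zpowers w :=
        (le_sup_right : Subgroup.zpowers w ≤ T ⊔ Subgroup.zpowers w) (Subgroup.mem_zpowers w)
      have h3 := Subgroup.mul_mem _ h1 (Subgroup.inv_mem _ h2)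
      simpa using h3

theorem B1_card [Finite F] {T : Subgroup (GL (Fin 2) F)} {w : GL (Fin 2) F} (h : Tor T w) :
    Nat.card (B1X h) = 2 * Nat.card T := by
  classical
  have hset : ((B1X h : Subgroup (GL (Fin 2) F)) : Set (GL (Fin 2) F))
      = (T : Set (GL (Fin 2) F)) ∪ (fun c => c * w⁻¹) '' (T : Set (GL (Fin 2) F)) := by
    ext x
    simp only [SetLike.mem_coe, B1_mem, Set.mem_union, Set.mem_image]
    constructor
    · rintro (hx | hx)
      · exact Or.inl hx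
      · exact Or.inr ⟨x * w, hx, by group⟩
    · rintro (hx | ⟨c, hc, rfl⟩)
      · exact Or.inl hx
      · right
        simpa using hc
  have hdisj : Disjoint (T : Set (GL (Fin 2) F)) ((fun c => c * w⁻¹) '' (T : Set (GL (Fin 2) F))) := by
    rw [Set.disjoint_left]
    rintro x hx ⟨c, hc, rfl⟩
    apply h.w_not_mem
    have h1 := T.mul_mem (T.inv_mem hx) hc
    simpa using h1
  have h1 : Nat.card (B1X h) = ((B1X h : Subgroup (GL (Fin 2) F)) : Set (GL (Fin 2) F)).ncard :=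
    (Nat.card_coe_set_eq _)
  have h2 : Nat.card T = (T : Set (GL (Fin 2) F)).ncard := (Nat.card_coe_set_eq _)
  rw [h1, hset, Set.ncard_union_eq hdisj (Set.toFinite _) (Set.toFinite _),
    Set.ncard_image_of_injective _ (mul_left_injective _), ← h2]
  ring

/-- `adj (c⁻¹) = (det c⁻¹) • c`. -/
theorem B1_adj_inv (c : GL (Fin 2) F) :
    adjugate ((c⁻¹ : GL (Fin 2) F) : Matrix (Fin 2) (Fin 2) F)
      = ((c⁻¹ : GL (Fin 2) F) : Matrix (Fin 2) (Fin 2) F).det • (c : Matrix (Fin 2) (Fin 2) F) := by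
  have h1 := Matrix.mul_adjugate ((c⁻¹ : GL (Fin 2) F) : Matrix (Fin 2) (Fin 2) F)
  have h2 : (c : Matrix (Fin 2) (Fin 2) F) * ((c⁻¹ : GL (Fin 2) F) : Matrix (Fin 2) (Fin 2) F) = 1 := by
    rw [← Units.val_mul, mul_inv_cancel, Units.val_one]
  calc adjugate ((c⁻¹ : GL (Fin 2) F) : Matrix (Fin 2) (Fin 2) F)
      = (c : Matrix (Fin 2) (Fin 2) F) * (((c⁻¹ : GL (Fin 2) F) : Matrix (Fin 2) (Fin 2) F)
          * adjugate ((c⁻¹ : GL (Fin 2) F) : Matrix (Fin 2) (Fin 2) F)) := by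
        rw [← mul_assoc, h2, one_mul]
    _ = _ := by rw [h1, Matrix.mul_smul, mul_one]

theorem B1_det_inv (c : GL (Fin 2) F) :
    (c : Matrix (Fin 2) (Fin 2) F).det * ((c⁻¹ : GL (Fin 2) F) : Matrix (Fin 2) (Fin 2) F).det = 1 := by
  rw [← Matrix.det_mul, ← Units.val_mul, mul_inv_cancel, Units.val_one, Matrix.det_one]

/-- the commutator `⁅c, w⁆` as a matrix. -/
theorem B1_comm {T : Subgroup (GL (Fin 2) F)} {w : GL (Fin 2) F} (h : Tor T w) {c : GL (Fin 2) F}
    (hc : c ∈ T) :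
    ((⁅c, w⁆ : GL (Fin 2) F) : Matrix (Fin 2) (Fin 2) F)
      = ((c⁻¹ : GL (Fin 2) F) : Matrix (Fin 2) (Fin 2) F).det •
        ((c : Matrix (Fin 2) (Fin 2) F) * (c : Matrix (Fin 2) (Fin 2) F)) := by
  have h1 : ⁅c, w⁆ = c * (w * c⁻¹ * w⁻¹) := by
    rw [commutatorElement_def]; group
  rw [h1, Units.val_mul, h.conj_adj _ (T.inv_mem hc), B1_adj_inv, Matrix.mul_smul]

theorem B1_comm_mem {T : Subgroup (GL (Fin 2) F)} {w : GL (Fin 2) F} (h : Tor T w)
    {c : GL (Fin 2) F} (hc : c ∈ T) : ⁅c, w⁆ ∈ ⁅B1X h, B1X h⁆ := by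
  apply Subgroup.commutator_mem_commutator
  · exact Or.inl hc
  · right
    rw [h.w_sq]; exact T.one_mem

/-- B1 -/
theorem base_of_tor [Finite F] {T : Subgroup (GL (Fin 2) F)} {w : GL (Fin 2) F} (h : Tor T w) :
    Base (T ⊔ Subgroup.zpowers w) ∧ Nat.card (T ⊔ Subgroup.zpowers w : Subgroup _) = 2 * Nat.card T := by
  rw [B1_eq h]
  refine ⟨⟨?_, ?_, ?_⟩, B1_card h⟩
  · obtain ⟨k, hk⟩ := (IsPGroup.iff_card (p := 2)).1 h.pgroup
    apply IsPGroup.of_card (n := k + 1)
    rw [B1_card h, hk, pow_succ]; ring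
  · have hw := B1_winv h
    rintro x (hx | hx)
    · refine ⟨⁅x, w⁆, B1_comm_mem h hx, ?_⟩
      rw [B1_comm h hx, smul_smul, B1_det_inv, one_smul, Units.val_mul]
    · obtain ⟨c₀, hc₀, hadj⟩ := h.ex_c
      refine ⟨⁅c₀, w⁆, B1_comm_mem h hc₀, ?_⟩
      -- the commutator is `-1`
      have h1 : ((⁅c₀, w⁆ : GL (Fin 2) F) : Matrix (Fin 2) (Fin 2) F) = -1 := by
        rw [B1_comm h hc₀]
        have h2 := Matrix.mul_adjugate (c₀ : Matrix (Fin 2) (Fin 2) F)
        rw [hadj, mul_neg] at h2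
        have h3 : (c₀ : Matrix (Fin 2) (Fin 2) F) * (c₀ : Matrix (Fin 2) (Fin 2) F)
            = - ((c₀ : Matrix (Fin 2) (Fin 2) F).det • (1 : Matrix (Fin 2) (Fin 2) F)) := by
          rw [← h2, neg_neg]
        rw [h3, smul_neg, smul_smul, mul_comm, B1_det_inv, one_smul]
      rw [h1]
      -- `x * x = (x w) (w (x w) w⁻¹)`
      have h4 : x * x = (x * w) * (w * (x * w) * w⁻¹) := by
        calc x * x = x * 1 * x := by group
          _ = x * (w * w) * x := by rw [h.w_sq]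
          _ = (x * w) * (w * (x * w) * w⁻¹) := by group
      rw [h4, Units.val_mul, h.conj_adj _ hx, Matrix.mul_adjugate, Units.val_mul, Matrix.det_mul,
        h.w_det]
      simp
  · have key : ∀ x ∈ B1X h, ∃ a ∈ T, (a : Matrix (Fin 2) (Fin 2) F).det
        = (x : Matrix (Fin 2) (Fin 2) F).det := by
      rintro x (hx | hx)
      · exact ⟨x, hx, rfl⟩
      · obtain ⟨t, ht, htd⟩ := h.ex_t
        refine ⟨x * w * t, T.mul_mem hx ht, ?_⟩
        rw [Units.val_mul, Units.val_mul, Matrix.det_mul, Matrix.det_mul, htd, h.w_det]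
        ring
    intro x hx x' hx'
    obtain ⟨a, ha, had⟩ := key x hx
    obtain ⟨a', ha', had'⟩ := key x' hx'
    exact ⟨a, Or.inl ha, a', Or.inl ha', h.comm a ha a' ha', had, had'⟩

end Cfsg.Agent.Lib.Helper90.G2S
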