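import Cfsg.Agent.Lib.Helper90.G2S.B0

/-!
Ladder G2SYL, rung B2 (helper72): the split torus of `GL₂(q)`.
-/

set_option autoImplicit false

namespace Cfsg.Agent.Lib.Helper90.G2S

open Cfsg.Lie Matrix
open scoped MatrixGroups

variable {F : Type*} [Field F]

/-- the inverse in `GL₂` by the adjugate. -/
theorem B2_inv (g : GL (Fin 2) F) :
    ((g⁻¹ : GL (Fin 2) F) : Matrix (Fin 2) (Fin 2) F)
      = ((g⁻¹ : GL (Fin 2) F) : Matrix (Fin 2) (Fin 2) F).det •
        adjugate (g : Matrix (Fin 2) (Fin 2) F) := by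
  have h1 := Matrix.mul_adjugate (g : Matrix (Fin 2) (Fin 2) F)
  have h2 : ((g⁻¹ : GL (Fin 2) F) : Matrix (Fin 2) (Fin 2) F) * (g : Matrix (Fin 2) (Fin 2) F) = 1 := by
    rw [← Units.val_mul, inv_mul_cancel, Units.val_one]
  have h3 : ((g⁻¹ : GL (Fin 2) F) : Matrix (Fin 2) (Fin 2) F).det
      * (g : Matrix (Fin 2) (Fin 2) F).det = 1 := by
    rw [← Matrix.det_mul, h2, Matrix.det_one]
  have h4 : adjugate (g : Matrix (Fin 2) (Fin 2) F)
      = (g : Matrix (Fin 2) (Fin 2) F).det • ((g⁻¹ : GL (Fin 2) F) : Matrix (Fin 2) (Fin 2) F) := by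
    calc adjugate (g : Matrix (Fin 2) (Fin 2) F)
        = ((g⁻¹ : GL (Fin 2) F) : Matrix (Fin 2) (Fin 2) F) * ((g : Matrix (Fin 2) (Fin 2) F)
            * adjugate (g : Matrix (Fin 2) (Fin 2) F)) := by rw [← mul_assoc, h2, one_mul]
      _ = _ := by rw [h1, Matrix.mul_smul, mul_one]
  rw [h4, smul_smul, h3, one_smul]

/-- the split torus: diagonal matrices. -/
def B2D (F : Type*) [Field F] : Subgroup (GL (Fin 2) F) where
  carrier := {g | (g : Matrix (Fin 2) (Fin 2) F) 0 1 = 0 ∧ (g : Matrix (Fin 2) (Fin 2) F) 1 0 = 0}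
  one_mem' := by simp
  mul_mem' := by
    rintro x y ⟨hx1, hx2⟩ ⟨hy1, hy2⟩
    simp only [Set.mem_ofPred_eq, Units.val_mul, Matrix.mul_apply, Fin.sum_univ_two]
    rw [hx1, hx2, hy1, hy2]
    constructor <;> ring
  inv_mem' := by
    rintro x ⟨hx1, hx2⟩
    simp only [Set.mem_ofPred_eq]
    rw [B2_inv, Matrix.adjugate_fin_two]
    simp only [Matrix.smul_apply, Matrix.of_apply, Matrix.cons_val_zero, Matrix.cons_val_one,
      Matrix.cons_val', Matrix.cons_val_fin_one, smul_eq_mul]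
    rw [hx1, hx2]
    constructor <;> ring

theorem B2_mem (g : GL (Fin 2) F) : g ∈ B2D F ↔
    (g : Matrix (Fin 2) (Fin 2) F) 0 1 = 0 ∧ (g : Matrix (Fin 2) (Fin 2) F) 1 0 = 0 := Iff.rfl

theorem B2_comm (c : GL (Fin 2) F) (hc : c ∈ B2D F) (c' : GL (Fin 2) F) (hc' : c' ∈ B2D F) :
    Commute c c' := by
  obtain ⟨h1, h2⟩ := hc
  obtain ⟨h3, h4⟩ := hc'
  apply Units.ext
  rw [Units.val_mul, Units.val_mul]
  ext i j
  fin_cases i <;> fin_cases j <;>
    simp only [Fin.zero_eta, Fin.mk_one, Fin.isValue, Matrix.mul_apply, Fin.sum_univ_two] <;>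
    (try simp only [h1, h2, h3, h4]) <;> ring

/-- the element `diag (l, m)`. -/
noncomputable def B2mk (l m : Fˣ) : GL (Fin 2) F :=
  Matrix.GeneralLinearGroup.mkOfDetNeZero !![(l : F), 0; 0, (m : F)] (by
    rw [Matrix.det_fin_two_of]
    simp)

theorem B2mk_val (l m : Fˣ) :
    ((B2mk l m : GL (Fin 2) F) : Matrix (Fin 2) (Fin 2) F) = !![(l : F), 0; 0, (m : F)] := rfl

theorem B2mk_mem (l m : Fˣ) : B2mk l m ∈ B2D F := by
  rw [B2_mem, B2mk_val]
  simp

theorem B2_card [Fintype F] : Nat.card (B2D F) = (Fintype.card F - 1) ^ 2 := by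
  classical
  have hne : ∀ g : B2D F, (g.1 : Matrix (Fin 2) (Fin 2) F) 0 0 ≠ 0 ∧
      (g.1 : Matrix (Fin 2) (Fin 2) F) 1 1 ≠ 0 := by
    rintro ⟨g, hg1, hg2⟩
    have h4 : IsUnit (g : Matrix (Fin 2) (Fin 2) F).det :=
      (Matrix.isUnit_iff_isUnit_det _).1 g.isUnit
    rw [Matrix.det_fin_two, hg1, hg2] at h4
    have h5 := h4.ne_zero
    constructor
    · intro h0
      apply h5
      simp only at h0
      rw [h0]; ring
    · intro h0
      apply h5
      simp only at h0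
      rw [h0]; ring
  have e : B2D F ≃ Fˣ × Fˣ :=
    { toFun := fun g => (Units.mk0 _ (hne g).1, Units.mk0 _ (hne g).2)
      invFun := fun p => ⟨B2mk p.1 p.2, B2mk_mem _ _⟩
      left_inv := by
        rintro ⟨g, hg1, hg2⟩
        apply Subtype.ext
        apply Units.ext
        simp only [B2mk_val]
        ext i j
        fin_cases i <;> fin_cases j <;> simp [hg1, hg2]
      right_inv := by
        rintro ⟨a, b⟩
        apply Prod.ext <;> apply Units.ext <;> simp [B2mk_val] }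
  rw [Nat.card_congr e, Nat.card_eq_fintype_card, Fintype.card_prod, Fintype.card_units]
  ring

/-- B2 -/
theorem tor_one [Fintype F] (hq : Fintype.card F % 4 = 1) :
    ∃ (T : Subgroup (GL (Fin 2) F)) (w : GL (Fin 2) F), Tor T w ∧
      Nat.card T = 2 ^ (2 * padicValNat 2 (Fintype.card F - 1)) := by
  classical
  obtain ⟨T, hTC, hTp, hTcard, hT⟩ := exists_two_part (B2D F) B2_comm
  have hwdet : (!![0, 1; 1, 0] : Matrix (Fin 2) (Fin 2) F).det ≠ 0 := by
    rw [Matrix.det_fin_two_of]; simp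
  set w : GL (Fin 2) F := Matrix.GeneralLinearGroup.mkOfDetNeZero !![0, 1; 1, 0] hwdet with hw
  have hwv : (w : Matrix (Fin 2) (Fin 2) F) = !![0, 1; 1, 0] := rfl
  have hww : w * w = 1 := by
    apply Units.ext
    rw [Units.val_mul, hwv, Units.val_one]
    ext i j
    fin_cases i <;> fin_cases j <;> simp [Matrix.mul_apply, Fin.sum_univ_two]
  have hwinv : w⁻¹ = w := inv_eq_of_mul_eq_one_left hww
  have hadj : ∀ c ∈ B2D F, ((w * c * w⁻¹ : GL (Fin 2) F) : Matrix (Fin 2) (Fin 2) F) =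
      adjugate (c : Matrix (Fin 2) (Fin 2) F) := by
    rintro c ⟨hc1, hc2⟩
    rw [hwinv, Units.val_mul, Units.val_mul, hwv, Matrix.adjugate_fin_two]
    ext i j
    fin_cases i <;> fin_cases j <;>
      simp only [Fin.zero_eta, Fin.mk_one, Fin.isValue, Matrix.mul_apply, Fin.sum_univ_two,
        Matrix.of_apply, Matrix.cons_val_zero, Matrix.cons_val_one, Matrix.cons_val',
        Matrix.cons_val_fin_one] <;> simp [hc1, hc2]
  have hpow : ∀ c ∈ T, ∃ k : ℕ, c ^ 2 ^ k = 1 := by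
    intro c hc
    obtain ⟨k, hk⟩ := hTp ⟨c, hc⟩
    exact ⟨k, by simpa using congrArg Subtype.val hk⟩
  have hc₀ : B2mk (1 : Fˣ) (-1) ∈ T := by
    refine hT _ (B2mk_mem _ _) ⟨1, ?_⟩
    apply Units.ext
    rw [Units.val_pow_eq_pow_val, B2mk_val, Units.val_one]
    norm_num [pow_succ]
    ext i j
    fin_cases i <;> fin_cases j <;> simp
  refine ⟨T, w, ⟨hTp, fun c hc c' hc' => B2_comm c (hTC hc) c' (hTC hc'), hww, ?_, ?_, ?_,
    fun c hc => hadj c (hTC hc), ?_, ?_⟩, ?_⟩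
  · rw [hwv, Matrix.det_fin_two_of]; simp
  · intro hwT
    have := (hTC hwT).1
    rw [hwv] at this
    simp at this
  · intro c hc
    apply hT
    · have h1 := hadj c (hTC hc)
      obtain ⟨hc1, hc2⟩ := hTC hc
      rw [B2_mem, h1, Matrix.adjugate_fin_two]
      simp [hc1, hc2]
    · obtain ⟨k, hk⟩ := hpow c hc
      exact ⟨k, by rw [conj_pow, hk]; group⟩
  · refine ⟨_, hc₀, ?_⟩
    rw [B2mk_val, Matrix.adjugate_fin_two_of]
    ext i j
    fin_cases i <;> fin_cases j <;> simp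
  · refine ⟨_, hc₀, ?_⟩
    rw [B2mk_val, Matrix.det_fin_two_of]
    simp
  · rw [hTcard, B2_card, padicValNat.pow]

end Cfsg.Agent.Lib.Helper90.G2S
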