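import Cfsg.Agent.Lib.Helper90.G2S.B0

/-!
Ladder G2SYL, rung B3 (helper72): the non-split torus of `GL₂(q)`, `q ≡ 3 mod 4`.
-/

set_option autoImplicit false

namespace Cfsg.Agent.Lib.Helper90.G2S

open Cfsg.Lie Matrix
open scoped MatrixGroups

variable {F : Type*} [Field F]

/-- the inverse in `GL₂` by the adjugate. -/
theorem B3_inv (g : GL (Fin 2) F) :
    ((g⁻¹ : GL (Fin 2) F) : Matrix (Fin 2) (Fin 2) F)
      = ((g⁻¹ : GL (Fin 2) F) : Matrix (Fin 2) (Fin 2) F).det •
        adjugate (g : Matrix (Fin 2) (Fin 2) F) := by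
  have h1 := Matrix.mul_adjugate (g : Matrix (Fin 2) (Fin 2) F)
  have h2 : ((g⁻¹ : GL (Fin 2) F) : Matrix (Fin 2) (Fin 2) F) * (g : Matrix (Fin 2) (Fin 2) F) = 1 := by
    rw [← Units.val_mul, inv_mul_cancel, Units.val_one]
  have h3 : ((g⁻¹ : GL (Fin 2) F) : Matrix (Fin 2) (Fin 2) F).det
      * (g : Matrix (Fin 2) (Fin 2) F).det = 1 := by
    rw [← Matrix.det_mul, h2, Matrix.det_one]
  have h4 : adjugate (g : Matrix (Fin 2) (Fin 2) F)
      = (g : Matrix (Fin 2) (Fin 2) F).det • ((g⁻¹ : GL (Fin 2) F) : Matrix (Fin 2) (Fin 2) F) := by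
    calc adjugate (g : Matrix (Fin 2) (Fin 2) F)
        = ((g⁻¹ : GL (Fin 2) F) : Matrix (Fin 2) (Fin 2) F) * ((g : Matrix (Fin 2) (Fin 2) F)
            * adjugate (g : Matrix (Fin 2) (Fin 2) F)) := by rw [← mul_assoc, h2, one_mul]
      _ = _ := by rw [h1, Matrix.mul_smul, mul_one]
  rw [h4, smul_smul, h3, one_smul]

/-- the non-split torus `{!![a, -b; b, a]}`. -/
def B3C (F : Type*) [Field F] : Subgroup (GL (Fin 2) F) where
  carrier := {g | (g : Matrix (Fin 2) (Fin 2) F) 0 0 = (g : Matrix (Fin 2) (Fin 2) F) 1 1 ∧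
    (g : Matrix (Fin 2) (Fin 2) F) 0 1 = - (g : Matrix (Fin 2) (Fin 2) F) 1 0}
  one_mem' := by simp
  mul_mem' := by
    rintro x y ⟨hx1, hx2⟩ ⟨hy1, hy2⟩
    simp only [Set.mem_ofPred_eq, Units.val_mul, Matrix.mul_apply, Fin.sum_univ_two]
    rw [hx1, hx2, hy1, hy2]
    constructor <;> ring
  inv_mem' := by
    rintro x ⟨hx1, hx2⟩
    simp only [Set.mem_ofPred_eq]
    rw [B3_inv, Matrix.adjugate_fin_two]
    simp only [Matrix.smul_apply, Matrix.of_apply, Matrix.cons_val_zero, Matrix.cons_val_one,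
      Matrix.cons_val', Matrix.cons_val_fin_one, smul_eq_mul]
    rw [hx1, hx2]
    constructor <;> ring

theorem B3_mem (g : GL (Fin 2) F) : g ∈ B3C F ↔
    (g : Matrix (Fin 2) (Fin 2) F) 0 0 = (g : Matrix (Fin 2) (Fin 2) F) 1 1 ∧
    (g : Matrix (Fin 2) (Fin 2) F) 0 1 = - (g : Matrix (Fin 2) (Fin 2) F) 1 0 := Iff.rfl

theorem B3_comm (c : GL (Fin 2) F) (hc : c ∈ B3C F) (c' : GL (Fin 2) F) (hc' : c' ∈ B3C F) :
    Commute c c' := by
  obtain ⟨h1, h2⟩ := hc
  obtain ⟨h3, h4⟩ := hc'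
  apply Units.ext
  rw [Units.val_mul, Units.val_mul]
  ext i j
  fin_cases i <;> fin_cases j <;>
    simp only [Fin.zero_eta, Fin.mk_one, Fin.isValue, Matrix.mul_apply, Fin.sum_univ_two] <;>
    (try simp only [h1, h2, h3, h4]) <;> ring

theorem B3_sq_ne [Fintype F] (hq : Fintype.card F % 4 = 3) (a b : F) (h : (a, b) ≠ 0) :
    a ^ 2 + b ^ 2 ≠ 0 := by
  intro h0
  have hns : ¬ IsSquare (-1 : F) := by
    rw [FiniteField.isSquare_neg_one_iff]; simp [hq]
  by_cases hb : b = 0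
  · subst hb
    apply h
    have : a = 0 := by simpa using h0
    simp [this]
  · apply hns
    refine ⟨a / b, ?_⟩
    field_simp
    linear_combination -h0

/-- the element `!![a, -b; b, a]`. -/
noncomputable def B3mk [Fintype F] (hq : Fintype.card F % 4 = 3) (a b : F) (h : (a, b) ≠ 0) :
    GL (Fin 2) F :=
  Matrix.GeneralLinearGroup.mkOfDetNeZero !![a, -b; b, a] (by
    rw [Matrix.det_fin_two_of]
    have := B3_sq_ne hq a b h
    intro h0
    apply this
    linear_combination h0)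

theorem B3mk_val [Fintype F] (hq : Fintype.card F % 4 = 3) (a b : F) (h : (a, b) ≠ 0) :
    ((B3mk hq a b h : GL (Fin 2) F) : Matrix (Fin 2) (Fin 2) F) = !![a, -b; b, a] := rfl

theorem B3mk_mem [Fintype F] (hq : Fintype.card F % 4 = 3) (a b : F) (h : (a, b) ≠ 0) :
    B3mk hq a b h ∈ B3C F := by
  rw [B3_mem, B3mk_val]
  simp

theorem B3_card [Fintype F] (hq : Fintype.card F % 4 = 3) :
    Nat.card (B3C F) = Fintype.card F ^ 2 - 1 := by
  classical
  have e : B3C F ≃ {p : F × F // ¬ (p = 0)} :=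
    { toFun := fun g => ⟨((g.1 : Matrix (Fin 2) (Fin 2) F) 0 0, (g.1 : Matrix (Fin 2) (Fin 2) F) 1 0), by
        intro h0
        have h1 : (g.1 : Matrix (Fin 2) (Fin 2) F) 0 0 = 0 := congrArg Prod.fst h0
        have h2 : (g.1 : Matrix (Fin 2) (Fin 2) F) 1 0 = 0 := congrArg Prod.snd h0
        have h3 : (g.1 : Matrix (Fin 2) (Fin 2) F).det = 0 := by
          rw [Matrix.det_fin_two, h1, h2]; ring
        have h4 : IsUnit (g.1 : Matrix (Fin 2) (Fin 2) F).det :=
          (Matrix.isUnit_iff_isUnit_det _).1 g.1.isUnit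
        rw [h3] at h4
        exact not_isUnit_zero h4⟩
      invFun := fun p => ⟨B3mk hq p.1.1 p.1.2 p.2, B3mk_mem hq _ _ _⟩
      left_inv := by
        rintro ⟨g, hg1, hg2⟩
        apply Subtype.ext
        apply Units.ext
        simp only [B3mk_val]
        ext i j
        fin_cases i <;> fin_cases j <;> simp [hg1, hg2]
      right_inv := by
        rintro ⟨⟨a, b⟩, hp⟩
        apply Subtype.ext
        simp [B3mk_val] }
  rw [Nat.card_congr e, Nat.card_eq_fintype_card, Fintype.card_subtype_compl,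
    Fintype.card_subtype_eq, Fintype.card_prod]
  ring_nf

/-- B3 -/
theorem tor_three [Fintype F] (hq : Fintype.card F % 4 = 3) :
    ∃ (T : Subgroup (GL (Fin 2) F)) (w : GL (Fin 2) F), Tor T w ∧
      Nat.card T = 2 ^ padicValNat 2 (Fintype.card F ^ 2 - 1) := by
  classical
  have h2 : (2 : F) ≠ 0 := by
    have hch : ringChar F ≠ 2 := by
      intro h
      have := FiniteField.even_card_of_char_two h
      omega
    exact Ring.two_ne_zero hch
  have h11 : (1 : F) ≠ -1 := by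
    intro h
    apply h2
    linear_combination h
  obtain ⟨T, hTC, hTp, hTcard, hT⟩ := exists_two_part (B3C F) B3_comm
  have hwdet : (!![1, 0; 0, -1] : Matrix (Fin 2) (Fin 2) F).det ≠ 0 := by
    rw [Matrix.det_fin_two_of]; simp
  set w : GL (Fin 2) F := Matrix.GeneralLinearGroup.mkOfDetNeZero !![1, 0; 0, -1] hwdet with hw
  have hwv : (w : Matrix (Fin 2) (Fin 2) F) = !![1, 0; 0, -1] := rfl
  have hww : w * w = 1 := by
    apply Units.ext
    rw [Units.val_mul, hwv, Units.val_one]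
    ext i j
    fin_cases i <;> fin_cases j <;> simp [Matrix.mul_apply, Fin.sum_univ_two]
  have hwinv : w⁻¹ = w := inv_eq_of_mul_eq_one_left hww
  have hadj : ∀ c ∈ B3C F, ((w * c * w⁻¹ : GL (Fin 2) F) : Matrix (Fin 2) (Fin 2) F) =
      adjugate (c : Matrix (Fin 2) (Fin 2) F) := by
    rintro c ⟨hc1, hc2⟩
    rw [hwinv, Units.val_mul, Units.val_mul, hwv, Matrix.adjugate_fin_two]
    ext i j
    fin_cases i <;> fin_cases j <;>
      simp only [Fin.zero_eta, Fin.mk_one, Fin.isValue, Matrix.mul_apply, Fin.sum_univ_two,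
        Matrix.of_apply, Matrix.cons_val_zero, Matrix.cons_val_one, Matrix.cons_val',
        Matrix.cons_val_fin_one] <;> simp [hc1, hc2]
  have hpow : ∀ c ∈ T, ∃ k : ℕ, c ^ 2 ^ k = 1 := by
    intro c hc
    obtain ⟨k, hk⟩ := hTp ⟨c, hc⟩
    exact ⟨k, by simpa using congrArg Subtype.val hk⟩
  refine ⟨T, w, ⟨hTp, fun c hc c' hc' => B3_comm c (hTC hc) c' (hTC hc'), hww, ?_, ?_, ?_,
    fun c hc => hadj c (hTC hc), ?_, ?_⟩, ?_⟩
  · rw [hwv, Matrix.det_fin_two_of]; simp
  · intro hwT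
    have := (hTC hwT).1
    rw [hwv] at this
    simp at this
    exact h11 this
  · intro c hc
    apply hT
    · have h1 := hadj c (hTC hc)
      obtain ⟨hc1, hc2⟩ := hTC hc
      rw [B3_mem, h1, Matrix.adjugate_fin_two]
      simp [hc1, hc2]
    · obtain ⟨k, hk⟩ := hpow c hc
      exact ⟨k, by rw [conj_pow, hk]; group⟩
  · have h01 : ((0 : F), (1 : F)) ≠ 0 := by
      intro h
      exact one_ne_zero (congrArg Prod.snd h)
    refine ⟨B3mk hq 0 1 h01, hT _ (B3mk_mem hq _ _ _) ⟨2, ?_⟩, ?_⟩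
    · apply Units.ext
      rw [Units.val_pow_eq_pow_val, B3mk_val, Units.val_one]
      norm_num [pow_succ]
      ext i j
      fin_cases i <;> fin_cases j <;> simp
    · rw [B3mk_val, Matrix.adjugate_fin_two_of]
      ext i j
      fin_cases i <;> fin_cases j <;> simp
  · have : NeZero (ringChar F) := ⟨CharP.char_ne_zero_of_finite F (ringChar F)⟩
    obtain ⟨a, b, hab⟩ := CharP.sq_add_sq F (ringChar F) (-1)
    have hab' : ((a : F), (b : F)) ≠ 0 := by
      intro h
      have h1 : (a : F) = 0 := congrArg Prod.fst h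
      have h2 : (b : F) = 0 := congrArg Prod.snd h
      rw [h1, h2] at hab
      simp at hab
    set c := B3mk hq a b hab' with hc
    have hcC : c ∈ B3C F := B3mk_mem hq _ _ _
    have hcdet : (c : Matrix (Fin 2) (Fin 2) F).det = -1 := by
      rw [hc, B3mk_val, Matrix.det_fin_two_of]
      have : ((a : F) ^ 2 + (b : F) ^ 2) = -1 := by simpa using hab
      linear_combination this
    have hN : Nat.card (B3C F) ≠ 0 := Nat.card_pos.ne'
    obtain ⟨k, m, hm, hkm⟩ := Nat.exists_eq_two_pow_mul_odd hN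
    refine ⟨c ^ m, hT _ (Subgroup.pow_mem _ hcC m) ⟨k, ?_⟩, ?_⟩
    · rw [← pow_mul, mul_comm, ← hkm]
      have h5 := pow_card_eq_one' (G := B3C F) (x := ⟨c, hcC⟩)
      have h6 := congrArg Subtype.val h5
      rwa [Subgroup.coe_pow, Subgroup.coe_one] at h6
    · rw [Units.val_pow_eq_pow_val, Matrix.det_pow, hcdet, hm.neg_one_pow]
  · rw [hTcard, B3_card hq]

end Cfsg.Agent.Lib.Helper90.G2S
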