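import Cfsg.Agent.Lib.Helper90.G2S.O1
import Cfsg.Agent.Lib.Helper90.G2S.O2

set_option autoImplicit false

namespace Cfsg.Agent.Lib.Helper90.G2S

open Cfsg.Lie Matrix
open scoped MatrixGroups

variable {F : Type*} [Field F]

theorem o3s_inv (P P' : GL (Fin 2) F) (c : F)
    (h1 : (P : Matrix (Fin 2) (Fin 2) F) = c • (P' : Matrix (Fin 2) (Fin 2) F)) :
    c ≠ 0 ∧ ((P⁻¹ : GL (Fin 2) F) : Matrix (Fin 2) (Fin 2) F) =
      c⁻¹ • ((P'⁻¹ : GL (Fin 2) F) : Matrix (Fin 2) (Fin 2) F) := by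
  have hc : c ≠ 0 := by
    rintro rfl
    have h2 : (P : Matrix (Fin 2) (Fin 2) F) = 0 := by simpa using h1
    have h3 : ((P * P⁻¹ : GL (Fin 2) F) : Matrix (Fin 2) (Fin 2) F) = 1 := by simp
    rw [Units.val_mul, h2, zero_mul] at h3
    exact zero_ne_one h3
  refine ⟨hc, ?_⟩
  have h4 : (P : Matrix (Fin 2) (Fin 2) F) *
      (c⁻¹ • ((P'⁻¹ : GL (Fin 2) F) : Matrix (Fin 2) (Fin 2) F)) = 1 := by
    rw [h1, Matrix.smul_mul, Matrix.mul_smul, smul_smul, mul_inv_cancel₀ hc, one_smul,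
      ← Units.val_mul, mul_inv_cancel, Units.val_one]
  have h5 : ((P⁻¹ : GL (Fin 2) F) : Matrix (Fin 2) (Fin 2) F) * (P : Matrix (Fin 2) (Fin 2) F) = 1 := by
    rw [← Units.val_mul, inv_mul_cancel, Units.val_one]
  calc ((P⁻¹ : GL (Fin 2) F) : Matrix (Fin 2) (Fin 2) F)
      = ((P⁻¹ : GL (Fin 2) F) : Matrix (Fin 2) (Fin 2) F) * ((P : Matrix (Fin 2) (Fin 2) F) *
      (c⁻¹ • ((P'⁻¹ : GL (Fin 2) F) : Matrix (Fin 2) (Fin 2) F))) := by rw [h4, mul_one]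
    _ = _ := by rw [← mul_assoc, h5, one_mul]

/-- O3S: scalar pairs act trivially. -/
theorem Phi_scalar {Φ : MM F →* G2 F} (hΦ : IsPhi Φ) (m m' : MM F) (c : F)
    (h1 : (m.1.1 : Matrix (Fin 2) (Fin 2) F) = c • (m'.1.1 : Matrix (Fin 2) (Fin 2) F))
    (h2 : (m.1.2 : Matrix (Fin 2) (Fin 2) F) = c • (m'.1.2 : Matrix (Fin 2) (Fin 2) F)) :
    Φ m = Φ m' := by
  apply act_ext
  intro w
  obtain ⟨hc, h3⟩ := o3s_inv _ _ c h1
  rw [← psi_surj w, hΦ, hΦ, h1, h2, h3]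
  congr 1
  · simp only [Matrix.smul_mul, Matrix.mul_smul, smul_smul, mul_inv_cancel₀ hc, inv_mul_cancel₀ hc,
      one_smul]
  · simp only [Matrix.smul_mul, Matrix.mul_smul, smul_smul, mul_inv_cancel₀ hc, inv_mul_cancel₀ hc,
      one_smul]

end Cfsg.Agent.Lib.Helper90.G2S
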