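import Mathlib
import Cfsg.Agent.Lib.Helper90.G2S.Defs
import Cfsg.Agent.Lib.Helper90.G2S.O3S

set_option autoImplicit false

namespace Cfsg.Agent.Lib.Helper90.G2S

open Cfsg.Lie Matrix Cfsg.Agent.Lib.Helper90.Syl2
open scoped MatrixGroups commutatorElement

variable {F : Type*} [Field F]

theorem c1_det_one {X : Subgroup (GL (Fin 2) F)} {z : GL (Fin 2) F} (hz : z ∈ ⁅X, X⁆) :
    GeneralLinearGroup.det z = 1 := by
  have : ⁅X, X⁆ ≤ (GeneralLinearGroup.det (n := Fin 2) (R := F)).ker := by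
    rw [Subgroup.commutator_le]
    intro a _ b _
    rw [MonoidHom.mem_ker, map_commutatorElement]
    exact commutatorElement_eq_one_iff_commute.2 (Commute.all _ _)
  exact this hz

theorem c1_mem_MM (a b : GL (Fin 2) F) :
    (a, b) ∈ MM F ↔ GeneralLinearGroup.det a = GeneralLinearGroup.det b := Iff.rfl

theorem c1_det_eq {a b : GL (Fin 2) F}
    (h : (a : Matrix (Fin 2) (Fin 2) F).det = (b : Matrix (Fin 2) (Fin 2) F).det) :
    GeneralLinearGroup.det a = GeneralLinearGroup.det b := Units.ext (by simpa using h)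

theorem c1_left {X : Subgroup (GL (Fin 2) F)} (hX : Base X) {z : GL (Fin 2) F} (hz : z ∈ ⁅X, X⁆) :
    ∃ n ∈ ⁅(X.prod X).subgroupOf (MM F), (X.prod X).subgroupOf (MM F)⁆,
      (n : GL (Fin 2) F × GL (Fin 2) F) = (z, 1) := by
  let K : Subgroup (GL (Fin 2) F) :=
    ((⁅(X.prod X).subgroupOf (MM F), (X.prod X).subgroupOf (MM F)⁆).map (MM F).subtype).comap
      (MonoidHom.inl _ _)
  have hK : ⁅X, X⁆ ≤ K := by
    rw [Subgroup.commutator_le]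
    intro u hu v hv
    obtain ⟨a, ha, a', ha', hcomm, hda, hda'⟩ := hX.comm u hu v hv
    refine ⟨⁅⟨(u, a), (c1_mem_MM _ _).2 (c1_det_eq hda.symm)⟩,
      ⟨(v, a'), (c1_mem_MM _ _).2 (c1_det_eq hda'.symm)⟩⁆,
      Subgroup.commutator_mem_commutator ?_ ?_, ?_⟩
    · exact Subgroup.mem_subgroupOf.2 (Subgroup.mem_prod.2 ⟨hu, ha⟩)
    · exact Subgroup.mem_subgroupOf.2 (Subgroup.mem_prod.2 ⟨hv, ha'⟩)
    · rw [map_commutatorElement]
      show ((⁅u, v⁆, ⁅a, a'⁆) : GL (Fin 2) F × GL (Fin 2) F) = (⁅u, v⁆, 1)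
      rw [commutatorElement_eq_one_iff_commute.2 hcomm]
  obtain ⟨n, hn, h⟩ := hK hz
  exact ⟨n, hn, h⟩

theorem c1_right {X : Subgroup (GL (Fin 2) F)} (hX : Base X) {z : GL (Fin 2) F} (hz : z ∈ ⁅X, X⁆) :
    ∃ n ∈ ⁅(X.prod X).subgroupOf (MM F), (X.prod X).subgroupOf (MM F)⁆,
      (n : GL (Fin 2) F × GL (Fin 2) F) = (1, z) := by
  let K : Subgroup (GL (Fin 2) F) :=
    ((⁅(X.prod X).subgroupOf (MM F), (X.prod X).subgroupOf (MM F)⁆).map (MM F).subtype).comap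
      (MonoidHom.inr _ _)
  have hK : ⁅X, X⁆ ≤ K := by
    rw [Subgroup.commutator_le]
    intro u hu v hv
    obtain ⟨a, ha, a', ha', hcomm, hda, hda'⟩ := hX.comm u hu v hv
    refine ⟨⁅⟨(a, u), (c1_mem_MM _ _).2 (c1_det_eq hda)⟩,
      ⟨(a', v), (c1_mem_MM _ _).2 (c1_det_eq hda')⟩⁆,
      Subgroup.commutator_mem_commutator ?_ ?_, ?_⟩
    · exact Subgroup.mem_subgroupOf.2 (Subgroup.mem_prod.2 ⟨ha, hu⟩)
    · exact Subgroup.mem_subgroupOf.2 (Subgroup.mem_prod.2 ⟨ha', hv⟩)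
    · rw [map_commutatorElement]
      show ((⁅a, a'⁆, ⁅u, v⁆) : GL (Fin 2) F × GL (Fin 2) F) = (1, ⁅u, v⁆)
      rw [commutatorElement_eq_one_iff_commute.2 hcomm]
  obtain ⟨n, hn, h⟩ := hK hz
  exact ⟨n, hn, h⟩

theorem sqIn_PP {Φ : MM F →* G2 F} (hΦ : IsPhi Φ) {X : Subgroup (GL (Fin 2) F)} (hX : Base X) :
    SqIn (PP Φ X) := by
  intro r hr
  obtain ⟨m, hm, rfl⟩ := hr
  have hm' := Subgroup.mem_prod.1 (Subgroup.mem_subgroupOf.1 hm)
  obtain ⟨z, hz, hzz⟩ := hX.sq _ hm'.1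
  obtain ⟨z', hz', hzz'⟩ := hX.sq _ hm'.2
  obtain ⟨n1, hn1, e1⟩ := c1_left hX hz
  obtain ⟨n2, hn2, e2⟩ := c1_right hX hz'
  have hdet : (m.1.2 : Matrix (Fin 2) (Fin 2) F).det = (m.1.1 : Matrix (Fin 2) (Fin 2) F).det := by
    have := congrArg Units.val m.2
    simpa using this.symm
  have h12 : ((n1 * n2 : MM F) : GL (Fin 2) F × GL (Fin 2) F) = (z, z') := by
    rw [Subgroup.coe_mul, e1, e2]
    simp
  unfold PP
  rw [← Subgroup.map_commutator, ← map_pow, pow_two]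
  refine ⟨n1 * n2, Subgroup.mul_mem _ hn1 hn2, ?_⟩
  symm
  apply Phi_scalar hΦ _ _ (m.1.1 : Matrix (Fin 2) (Fin 2) F).det
  · rw [h12]
    exact hzz
  · rw [h12, ← hdet]
    exact hzz'

end Cfsg.Agent.Lib.Helper90.G2S
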