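import Mathlib
import Cfsg.Agent.Lib.Helper90.G2S.Defs
import Cfsg.Agent.Lib.Helper90.G2S.O3K

set_option autoImplicit false

namespace Cfsg.Agent.Lib.Helper90.G2S

open Cfsg.Lie Matrix Cfsg.Agent.Lib.Helper90.Syl2
open scoped MatrixGroups

variable {F : Type*} [Field F]

theorem c2_card_le [Fintype F] {H : Type*} [Group H] [Finite H] (hH : IsPGroup 2 H)
    (hd : Nat.card H ∣ Fintype.card F - 1) :
    Nat.card H ≤ 2 ^ padicValNat 2 (Fintype.card F - 1) := by
  obtain ⟨n, hn⟩ := IsPGroup.iff_card.1 hH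
  rw [hn] at hd ⊢
  apply Nat.pow_le_pow_right (by norm_num)
  have h1 : 1 < Fintype.card F := Fintype.one_lt_card
  exact (padicValNat_dvd_iff_le (by omega)).1 hd

theorem c2_card_units [Fintype F] : Nat.card Fˣ = Fintype.card F - 1 := by
  classical
  rw [Nat.card_eq_fintype_card, Fintype.card_units]

theorem c2_ker_range {G A : Type*} [Group G] [Group A] (θ : G →* A) :
    Nat.card G = Nat.card θ.ker * Nat.card θ.range := by
  rw [← Subgroup.index_ker, Subgroup.card_mul_index]

/-- the pairs of equal scalar matrices -/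
def c2s (F : Type*) [Field F] : Fˣ →* GL (Fin 2) F × GL (Fin 2) F :=
  (GeneralLinearGroup.scalar (Fin 2)).prod (GeneralLinearGroup.scalar (Fin 2))

theorem c2s_inj : Function.Injective (c2s F) := by
  intro a b hab
  have := congrArg (fun g : GL (Fin 2) F × GL (Fin 2) F => g.1.1 0 0) hab
  apply Units.ext
  simpa [c2s] using this

theorem card_PP_ge [Fintype F] {Φ : MM F →* G2 F} (hΦ : IsPhi Φ) {X : Subgroup (GL (Fin 2) F)}
    (hX : IsPGroup 2 X) (k : ℕ) (hk : 2 ^ (k + padicValNat 2 (Fintype.card F - 1)) ≤ Nat.card X) :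
    IsPGroup 2 (PP Φ X) ∧ 2 ^ (2 * k) ≤ Nat.card (PP Φ X) := by
  classical
  set v := padicValNat 2 (Fintype.card F - 1) with hv
  have hcY : Nat.card (X.prod X) = Nat.card X * Nat.card X := by
    rw [Nat.card_congr (Subgroup.prodEquiv X X).toEquiv, Nat.card_prod]
  have hY : IsPGroup 2 (X.prod X) := by
    obtain ⟨n, hn⟩ := IsPGroup.iff_card.1 hX
    apply IsPGroup.of_card (n := n + n)
    rw [hcY, hn, pow_add]
  have hP : IsPGroup 2 ((X.prod X).subgroupOf (MM F)) := hY.comap_subtype
  have hPP : IsPGroup 2 (PP Φ X) := hP.map Φ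
  refine ⟨hPP, ?_⟩
  -- step a
  let θ : (X.prod X) →* Fˣ :=
    (((GeneralLinearGroup.det (n := Fin 2) (R := F)).comp (MonoidHom.fst _ _)) /
      ((GeneralLinearGroup.det (n := Fin 2) (R := F)).comp (MonoidHom.snd _ _))).comp (X.prod X).subtype
  have ha : Nat.card (X.prod X) ≤ Nat.card ((X.prod X).subgroupOf (MM F)) * 2 ^ v := by
    rw [c2_ker_range θ]
    apply Nat.mul_le_mul
    · let f : θ.ker → (X.prod X).subgroupOf (MM F) := fun y =>
        ⟨⟨y.1.1, by
          have h := y.2
          rw [MonoidHom.mem_ker] at h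
          exact div_eq_one.1 h⟩, Subgroup.mem_subgroupOf.2 y.1.2⟩
      apply Nat.card_le_card_of_injective f
      intro a b hab
      apply Subtype.ext
      apply Subtype.ext
      exact congrArg (fun z : (X.prod X).subgroupOf (MM F) => z.1.1) hab
    · apply c2_card_le (hY.of_surjective θ.rangeRestrict θ.rangeRestrict_surjective)
      rw [← c2_card_units]
      exact Subgroup.card_subgroup_dvd_card _
  -- step b
  let Φ' : (X.prod X).subgroupOf (MM F) →* G2 F := Φ.comp ((X.prod X).subgroupOf (MM F)).subtype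
  have hr : Nat.card Φ'.range = Nat.card (PP Φ X) := by
    have : Φ'.range = PP Φ X := by
      unfold PP
      rw [MonoidHom.range_comp, Subgroup.range_subtype]
    rw [this]
  have hb : Nat.card ((X.prod X).subgroupOf (MM F)) ≤ 2 ^ v * Nat.card (PP Φ X) := by
    rw [c2_ker_range Φ', hr]
    apply Nat.mul_le_mul_right
    apply c2_card_le (hP.to_subgroup _)
    let j : (X.prod X).subgroupOf (MM F) →* GL (Fin 2) F × GL (Fin 2) F :=
      (MM F).subtype.comp ((X.prod X).subgroupOf (MM F)).subtype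
    have hj : Function.Injective j := by
      intro a b hab
      exact Subtype.ext (Subtype.ext hab)
    rw [← Subgroup.card_map_of_injective hj, ← c2_card_units,
      Nat.card_congr (MonoidHom.ofInjective (c2s_inj (F := F))).toEquiv]
    apply Subgroup.card_dvd_of_le
    rintro _ ⟨m, hm, rfl⟩
    obtain ⟨c, h1, h2⟩ := ker_Phi hΦ m.1 hm
    have hc : c ≠ 0 := by
      rintro rfl
      have h3 := (GeneralLinearGroup.det m.1.1.1).ne_zero
      apply h3
      rw [GeneralLinearGroup.val_det_apply, h1]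
      simp
    refine ⟨Units.mk0 c hc, ?_⟩
    apply Prod.ext
    · apply Units.ext
      rw [show ((j m).1 : Matrix (Fin 2) (Fin 2) F) = c • 1 from h1]
      simp [c2s, Matrix.smul_one_eq_diagonal]
    · apply Units.ext
      rw [show ((j m).2 : Matrix (Fin 2) (Fin 2) F) = c • 1 from h2]
      simp [c2s, Matrix.smul_one_eq_diagonal]
  -- conclusion
  have h1 : 2 ^ (k + v) * 2 ^ (k + v) ≤ 2 ^ v * Nat.card (PP Φ X) * 2 ^ v := by
    calc 2 ^ (k + v) * 2 ^ (k + v) ≤ Nat.card X * Nat.card X := Nat.mul_le_mul hk hk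
      _ = Nat.card (X.prod X) := hcY.symm
      _ ≤ _ := ha
      _ ≤ _ := Nat.mul_le_mul_right _ hb
  have h2 : 2 ^ (k + v) * 2 ^ (k + v) = 2 ^ (2 * k) * (2 ^ v * 2 ^ v) := by
    rw [pow_add, two_mul, pow_add]; ring
  have h3 : 2 ^ v * Nat.card (PP Φ X) * 2 ^ v = Nat.card (PP Φ X) * (2 ^ v * 2 ^ v) := by ring
  rw [h2, h3] at h1
  exact Nat.le_of_mul_le_mul_right h1 (by positivity)

end Cfsg.Agent.Lib.Helper90.G2S
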