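import Cfsg.Agent.Lib.Helper90.Syl2.A4
import Cfsg.Agent.Lib.Helper90.Syl2.A6
import Cfsg.Agent.Lib.Helper90.Syl2.A8

set_option autoImplicit false

namespace Cfsg.Agent.Lib.Helper90.G2S

open Cfsg.Agent.Lib.Helper90.Syl2
open scoped Pointwise

/-- C3. -/
theorem odd_index_of_card_ge {G : Type*} [Group G] [Finite G] (P : Subgroup G) (hP : IsPGroup 2 P)
    (h : 2 ^ padicValNat 2 (Nat.card G) ≤ Nat.card P) : Odd P.index := by
  have : Fact (Nat.Prime 2) := ⟨Nat.prime_two⟩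
  apply A6_odd_of_card
  obtain ⟨n, hn⟩ := IsPGroup.iff_card.1 hP
  have h1 : 2 ^ n ∣ Nat.card G := hn ▸ Subgroup.card_subgroup_dvd_card P
  have h2 : n ≤ padicValNat 2 (Nat.card G) :=
    (padicValNat_dvd_iff_le Nat.card_pos.ne').1 h1
  rw [hn] at h ⊢
  have h3 : padicValNat 2 (Nat.card G) ≤ n := (Nat.pow_le_pow_iff_right (by norm_num)).1 h
  rw [le_antisymm h2 h3]

theorem nice_sylow {G : Type*} [Group G] [Finite G] (h : Nice G) (P : Sylow 2 G) :
    ∀ x : (P : Subgroup G), x ^ 2 ∈ commutator (P : Subgroup G) := by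
  classical
  have : Fact (Nat.Prime 2) := ⟨Nat.prime_two⟩
  obtain ⟨X, hX, hodd, hs⟩ := h
  have hnd : ¬ 2 ∣ X.index := by
    rw [← even_iff_two_dvd, Nat.not_even_iff_odd]; exact hodd
  let XS : Sylow 2 G := hX.toSylow hnd
  have hXS : (XS : Subgroup G) = X := rfl
  rw [A8_sq_iff]
  obtain ⟨g, hg⟩ := MulAction.exists_smul_eq G XS P
  have : (P : Subgroup G) = X.map (MulAut.conj g).toMonoidHom := by
    rw [← hg, Sylow.coe_subgroup_smul, hXS]
    rfl
  rw [this]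
  exact hs.map _

end Cfsg.Agent.Lib.Helper90.G2S
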