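import Mathlib

set_option autoImplicit false

namespace Cfsg.Agent.Lib.Helper90.G2S

theorem g2n_v2_odd {n : ℕ} (h : Odd n) : padicValNat 2 n = 0 := by
  apply padicValNat.eq_zero_of_not_dvd
  rw [← even_iff_two_dvd, Nat.not_even_iff_odd]; exact h

theorem g2n_v2_mod4 {n : ℕ} (h : n % 4 = 2) : padicValNat 2 n = 1 := by
  obtain ⟨k, rfl⟩ : ∃ k, n = 2 * (2 * k + 1) := ⟨n / 4, by omega⟩
  have : Fact (Nat.Prime 2) := ⟨Nat.prime_two⟩
  rw [padicValNat.mul (by norm_num) (by omega), padicValNat.self (by norm_num),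
    g2n_v2_odd ⟨k, rfl⟩]

theorem num_one (q : ℕ) (hq : q % 4 = 1) (hq1 : 1 < q) :
    padicValNat 2 (q ^ 2 - 1) = padicValNat 2 (q - 1) + 1 := by
  have : Fact (Nat.Prime 2) := ⟨Nat.prime_two⟩
  have h : q ^ 2 - 1 = (q - 1) * (q + 1) := by
    obtain ⟨k, rfl⟩ : ∃ k, q = k + 1 := ⟨q - 1, by omega⟩
    simp only [Nat.add_sub_cancel]
    have : (k + 1) ^ 2 = k * (k + 1 + 1) + 1 := by ring
    rw [this, Nat.add_sub_cancel]
  rw [h, padicValNat.mul (by omega) (by omega), g2n_v2_mod4 (n := q + 1) (by omega)]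

theorem num_three (q : ℕ) (hq : q % 4 = 3) : padicValNat 2 (q - 1) = 1 :=
  g2n_v2_mod4 (by omega)

/-- N3. -/
theorem num_G2 (q c : ℕ) (hq : Odd q) (hq1 : 1 < q)
    (hc : (q - 1) * c = ∏ i : Fin 3, (q ^ 3 - q ^ (i : ℕ))) :
    padicValNat 2 ((q ^ 6 + q ^ 3) * c) = 2 * padicValNat 2 (q ^ 2 - 1) := by
  have : Fact (Nat.Prime 2) := ⟨Nat.prime_two⟩
  obtain ⟨k, rfl⟩ : ∃ k, q = k + 1 := ⟨q - 1, by omega⟩
  have hk : 0 < k := by omega
  simp only [Nat.add_sub_cancel] at hc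
  rw [Fin.prod_univ_three] at hc
  simp only [Fin.val_zero, Fin.val_one, Fin.val_two, pow_zero, pow_one] at hc
  have e1 : (k + 1) ^ 3 - 1 = k * (k ^ 2 + 3 * k + 3) := by
    have : (k + 1) ^ 3 = k * (k ^ 2 + 3 * k + 3) + 1 := by ring
    rw [this, Nat.add_sub_cancel]
  have e2 : (k + 1) ^ 3 - (k + 1) = (k + 1) * (k * (k + 2)) := by
    have : (k + 1) ^ 3 = (k + 1) * (k * (k + 2)) + (k + 1) := by ring
    rw [this, Nat.add_sub_cancel]
  have e3 : (k + 1) ^ 3 - (k + 1) ^ 2 = (k + 1) ^ 2 * k := by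
    have : (k + 1) ^ 3 = (k + 1) ^ 2 * k + (k + 1) ^ 2 := by ring
    rw [this, Nat.add_sub_cancel]
  have e4 : (k + 1) ^ 2 - 1 = k * (k + 2) := by
    have : (k + 1) ^ 2 = k * (k + 2) + 1 := by ring
    rw [this, Nat.add_sub_cancel]
  rw [e1, e2, e3] at hc
  have hc' : c = (k ^ 2 + 3 * k + 3) * ((k + 1) * (k * (k + 2))) * ((k + 1) ^ 2 * k) := by
    apply Nat.eq_of_mul_eq_mul_left hk
    rw [hc]; ring
  have e5 : (k + 1) ^ 6 + (k + 1) ^ 3 = (k + 1) ^ 3 * ((k + 2) * (k ^ 2 + k + 1)) := by ring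
  have ho1 : Odd (k ^ 2 + 3 * k + 3) := by
    obtain ⟨j, hj⟩ := hq
    have : k = 2 * j := by omega
    subst this
    exact ⟨2 * j ^ 2 + 3 * j + 1, by ring⟩
  have ho2 : Odd (k ^ 2 + k + 1) := by
    obtain ⟨j, hj⟩ := hq
    have : k = 2 * j := by omega
    subst this
    exact ⟨2 * j ^ 2 + j, by ring⟩
  rw [hc', e4, e5]
  have hk1 : k + 1 ≠ 0 := by omega
  have hk2 : k + 2 ≠ 0 := by omega
  have hk0 : k ≠ 0 := by omega
  have hA : k ^ 2 + 3 * k + 3 ≠ 0 := by positivity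
  have hB : k ^ 2 + k + 1 ≠ 0 := by positivity
  have v1 : padicValNat 2 (k + 1) = 0 := g2n_v2_odd hq
  have v3 : padicValNat 2 ((k + 1) ^ 3) = 0 := g2n_v2_odd hq.pow
  have v2' : padicValNat 2 ((k + 1) ^ 2) = 0 := g2n_v2_odd hq.pow
  rw [padicValNat.mul (by positivity) (by positivity), padicValNat.mul (by positivity) (by positivity),
    padicValNat.mul hk2 hB, padicValNat.mul (by positivity) (by positivity),
    padicValNat.mul hA (by positivity), padicValNat.mul hk1 (by positivity),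
    padicValNat.mul hk0 hk2, padicValNat.mul (by positivity) hk0,
    v1, v3, v2', g2n_v2_odd ho1, g2n_v2_odd ho2]
  ring

end Cfsg.Agent.Lib.Helper90.G2S
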