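import Cfsg.Agent.Lib.Helper90.G2S.O1
import Cfsg.Agent.Lib.Helper90.G2S.O2
import Cfsg.Agent.Lib.Helper90.G2S.O3
import Cfsg.Agent.Lib.Helper90.G2S.O3K
import Cfsg.Agent.Lib.Helper90.G2S.O3S
import Cfsg.Agent.Lib.Helper90.G2S.O4
import Cfsg.Agent.Lib.Helper90.G2S.O5
import Cfsg.Agent.Lib.Helper90.G2S.O6
import Cfsg.Agent.Lib.Helper90.G2S.O7
import Cfsg.Agent.Lib.Helper90.G2S.O8
import Cfsg.Agent.Lib.Helper90.G2S.T1
import Cfsg.Agent.Lib.Helper90.G2S.T2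
import Cfsg.Agent.Lib.Helper90.G2S.T3
import Cfsg.Agent.Lib.Helper90.G2S.N1
import Cfsg.Agent.Lib.Helper90.G2S.B0
import Cfsg.Agent.Lib.Helper90.G2S.B1
import Cfsg.Agent.Lib.Helper90.G2S.B2
import Cfsg.Agent.Lib.Helper90.G2S.B3
import Cfsg.Agent.Lib.Helper90.G2S.C1
import Cfsg.Agent.Lib.Helper90.G2S.C2
import Cfsg.Agent.Lib.Helper90.G2S.C3
import Cfsg.Agent.S0242

set_option autoImplicit false

namespace Cfsg.Agent.Lib.Helper90.G2S

open Cfsg.Lie Matrix Cfsg.Agent.Lib.Helper90.Syl2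
open scoped MatrixGroups

variable {F : Type*} [Field F] [Fintype F]

theorem v2_card_G2 (hF : Odd (Fintype.card F)) :
    padicValNat 2 (Nat.card (G2 F)) = 2 * padicValNat 2 (Fintype.card F ^ 2 - 1) := by
  rw [card_G2, card_Idem]
  exact num_G2 _ _ hF Fintype.one_lt_card (Cfsg.Agent.S0242.result rfl 3 (by norm_num))

theorem exists_base (hF : Odd (Fintype.card F)) :
    ∃ X : Subgroup (GL (Fin 2) F), Base X ∧
      2 ^ (padicValNat 2 (Fintype.card F ^ 2 - 1) + padicValNat 2 (Fintype.card F - 1)) ≤ Nat.card X := by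
  have h4 : Fintype.card F % 4 = 1 ∨ Fintype.card F % 4 = 3 := by
    have := Nat.odd_iff.1 hF
    omega
  rcases h4 with h | h
  · obtain ⟨T, w, hT, hc⟩ := tor_one (F := F) h
    obtain ⟨hB, hc'⟩ := base_of_tor hT
    refine ⟨_, hB, ?_⟩
    rw [hc', hc, num_one _ h Fintype.one_lt_card]
    apply le_of_eq
    rw [← pow_succ']
    congr 1
    ring
  · obtain ⟨T, w, hT, hc⟩ := tor_three (F := F) h
    obtain ⟨hB, hc'⟩ := base_of_tor hT
    refine ⟨_, hB, ?_⟩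
    rw [hc', hc, num_three _ h]
    apply le_of_eq
    rw [pow_succ']

theorem nice_G2 (hF : Odd (Fintype.card F)) : Nice (G2 F) := by
  obtain ⟨Φ, hΦ⟩ := exists_Phi (F := F)
  obtain ⟨X, hX, hc⟩ := exists_base hF
  obtain ⟨h2, h3⟩ := card_PP_ge hΦ hX.pgroup _ hc
  refine ⟨PP Φ X, h2, ?_, sqIn_PP hΦ hX⟩
  apply odd_index_of_card_ge _ h2
  rw [v2_card_G2 hF]
  exact h3

theorem final (hF : Odd (Fintype.card F)) (P : Sylow 2 (G2 F)) :
    ∀ x : (P : Subgroup (G2 F)), x ^ 2 ∈ commutator (P : Subgroup (G2 F)) :=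
  nice_sylow (nice_G2 hF) P

end Cfsg.Agent.Lib.Helper90.G2S
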